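import Mathlib

/-! Arithmetic for groups of order `p² (p⁴ - 1) / 2`. -/

set_option autoImplicit false

namespace CF.L2q

/-- the numerical data -/
structure Ar (p m : ℕ) : Prop where
  pr : p.Prime
  ge : 7 ≤ p
  eq : 2 * m + 1 = p ^ 4

variable {p m r d i n q : ℕ}

theorem Ar.ex (h : Ar p m) : ∃ k, 3 ≤ k ∧ p = 2 * k + 1 ∧ m = 4 * (k * (k + 1) * (2 * k ^ 2 + 2 * k + 1)) := by
  obtain ⟨k, e⟩ := h.pr.odd_of_ne_two (by have := h.ge; omega)
  refine ⟨k, by have := h.ge; omega, e, ?_⟩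
  have := h.eq
  rw [e] at this
  nlinarith

theorem Ar.cop (h : Ar p m) : p.Coprime m := by
  rw [h.pr.coprime_iff_not_dvd]
  intro e
  have : p ∣ 2 * m + 1 := h.eq ▸ dvd_pow_self p (by norm_num)
  exact h.pr.one_lt.ne' (Nat.dvd_one.1 ((Nat.dvd_add_right (e.mul_left 2)).1 this))

theorem Ar.dvd (h : Ar p m) (c : ¬ p ∣ d) (e : d ∣ p ^ 2 * m) : d ∣ m :=
  (((h.pr.coprime_iff_not_dvd.2 c).symm).pow_right 2).dvd_of_dvd_mul_left e

theorem cop1 (k : ℕ) : (k * (k + 1)).Coprime (2 * k ^ 2 + 2 * k + 1) := by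
  rw [show 2 * k ^ 2 + 2 * k + 1 = 1 + 2 * (k * (k + 1)) by ring]
  simp

theorem odd_pp {k : ℕ} (a : IsPrimePow d) (o : Odd d) (e : d ∣ 4 * (k * (k + 1) * (2 * k ^ 2 + 2 * k + 1))) :
    d ∣ k ∨ d ∣ k + 1 ∨ d ∣ 2 * k ^ 2 + 2 * k + 1 := by
  have c : d.Coprime 4 := (Nat.coprime_two_right.2 o).pow_right 2
  rcases ((cop1 k).isPrimePow_dvd_mul a).1 (c.dvd_of_dvd_mul_left e) with e | e
  · rcases ((by simp : k.Coprime (k + 1)).isPrimePow_dvd_mul a).1 e with e | e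
    exacts [.inl e, .inr (.inl e)]
  · exact .inr (.inr e)

theorem two_pp {k : ℕ} (e : 2 ^ i ∣ 4 * (k * (k + 1) * (2 * k ^ 2 + 2 * k + 1))) :
    2 ^ i ∣ 4 * k ∨ (2 ^ i ∣ 4 * (k + 1) ∧ Odd k) := by
  have c : (2 ^ i).Coprime (2 * k ^ 2 + 2 * k + 1) :=
    (Nat.coprime_two_left.2 ⟨k ^ 2 + k, by ring⟩).pow_left i
  rw [← mul_assoc] at e
  have e := c.dvd_of_dvd_mul_right e
  rcases Nat.even_or_odd k with o | o
  · rw [← mul_assoc] at e
    exact .inl (((Nat.coprime_two_left.2 o.add_one).pow_left i).dvd_of_dvd_mul_right e)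
  · rw [mul_left_comm] at e
    exact .inr ⟨((Nat.coprime_two_left.2 o).pow_left i).dvd_of_dvd_mul_left e, o⟩

theorem mod_ex (h : d ≡ 1 [MOD p]) (d0 : d ≠ 0) : ∃ a, d = 1 + a * p := by
  obtain ⟨a, e⟩ := (Nat.modEq_iff_dvd' (Nat.pos_of_ne_zero d0)).1 h.symm
  exact ⟨a, by rw [mul_comm, ← e]; omega⟩

theorem mod_ge (h : d ≡ 1 [MOD p]) (d0 : d ≠ 0) (d1 : d ≠ 1) : d = p + 1 ∨ 2 * p + 1 ≤ d := by
  obtain ⟨a, rfl⟩ := mod_ex h d0
  rcases a with _ | _ | a
  · simp at d1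
  · left; ring
  · right; nlinarith

theorem Ar.nd (h : Ar p m) (e : d ≡ 1 [MOD p]) : ¬ p ∣ d := fun k =>
  h.pr.one_lt.ne' (Nat.dvd_one.1 ((e.dvd_iff dvd_rfl).1 k))

/-- a prime power divisor congruent to one -/
theorem Ar.pp (h : Ar p m) (hr : r.Prime) (d1 : r ^ i ≠ 1) (e : r ^ i ≡ 1 [MOD p]) (v : r ^ i ∣ p ^ 2 * m) :
    r = 2 ∧ r ^ i = p + 1 := by
  have v := h.dvd (h.nd e) v
  have d0 : r ^ i ≠ 0 := pow_ne_zero _ hr.ne_zero
  obtain ⟨k, k3, ep, em⟩ := h.ex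
  have g := mod_ge e d0 d1
  rw [em] at v
  by_cases r2 : r = 2
  · subst r2
    refine ⟨rfl, g.resolve_right fun g => ?_⟩
    have ev : 2 ∣ 2 ^ i := dvd_pow_self 2 (by rintro rfl; simp at d1)
    have : 2 ^ i ≤ 4 * (k + 1) := by
      rcases two_pp v with v | v
      · have := Nat.le_of_dvd (by omega) v; omega
      · exact Nat.le_of_dvd (by omega) v.1
    obtain ⟨a, ea⟩ := mod_ex e d0
    have : a < 3 := by by_contra; nlinarith
    have : a = 2 := by by_contra; nlinarith [show a ≤ 1 by omega]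
    subst this; omega
  · exfalso
    have o : Odd (r ^ i) := (hr.odd_of_ne_two r2).pow
    have g : 2 * p + 1 ≤ r ^ i := g.resolve_left fun g => by rw [g, ep] at o; obtain ⟨t, o⟩ := o; omega
    rcases odd_pp (hr.isPrimePow.pow (by rintro rfl; simp at d1)) o v with v | v | ⟨c, v⟩
    · have := Nat.le_of_dvd (by omega) v; omega
    · have := Nat.le_of_dvd (by omega) v; omega
    · have e1 : r ^ i * (2 * c) = 1 + p * p := by rw [ep]; linarith
      have e2 : 2 * c ≡ 1 [MOD p] := by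
        have := e.mul_right (2 * c)
        rw [e1, one_mul] at this
        exact this.symm.trans (by simp [Nat.ModEq])
      have c0 : 2 * c ≠ 0 := by rintro c0; rw [c0, mul_zero] at e1; omega
      have := mod_ge e2 c0 (by omega)
      have : p + 1 ≤ 2 * c := by omega
      nlinarith

/-- the `2`-part in the Mersenne case -/
theorem Ar.two (h : Ar p m) (e : p + 1 = 2 ^ i) {j : ℕ} (v : 2 ^ j ∣ p ^ 2 * m) : 2 ^ j ∣ 2 * (p + 1) := by
  have p2 : ¬ p ∣ 2 ^ j := fun k => by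
    have := Nat.le_of_dvd two_pos (h.pr.dvd_of_dvd_pow k); have := h.ge; omega
  have v := h.dvd p2 v
  obtain ⟨k, k3, ep, em⟩ := h.ex
  rw [em] at v
  have ko : Odd k := by
    rcases i with _ | _ | i
    · omega
    · omega
    · exact ⟨2 ^ i - 1, by have := Nat.one_le_two_pow (n := i); rw [pow_succ, pow_succ] at e; omega⟩
  rw [show 2 * (p + 1) = 4 * (k + 1) by omega]
  rcases two_pp v with v | v
  · exact (((Nat.coprime_two_left.2 ko).pow_left j).dvd_of_dvd_mul_right v).mul_right _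
  · exact v.1

theorem Ar.add_two (h : Ar p m) (v : p + 2 ∣ p ^ 2 * m) : p = 13 := by
  have g := h.ge
  have v := h.dvd (fun k => by
    have := Nat.le_of_dvd two_pos ((Nat.dvd_add_right dvd_rfl).1 k); omega) v
  have e : ((p + 2 : ℕ) : ℤ) ∣ (15 : ℕ) := by
    have e1 : ((2 * m + 1 : ℕ) : ℤ) = (p ^ 4 : ℕ) := by rw [h.eq]
    have e2 := (Int.natCast_dvd_natCast.2 v).mul_left 2
    push_cast at e1 e2 ⊢
    have : (15 : ℤ) = 2 * m - (p + 2) * ((p - 2) * (p ^ 2 + 4)) := by linear_combination -e1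
    rw [this]; exact dvd_sub e2 (dvd_mul_right _ _)
  have e := Int.natCast_dvd_natCast.1 e
  have := Nat.le_of_dvd (by norm_num) e
  have : p ≤ 13 := by omega
  interval_cases p <;> omega

theorem Ar.sub_two (h : Ar p m) (v : p - 2 ∣ p ^ 2 * m) : p = 7 ∨ p = 17 := by
  have g := h.ge
  obtain ⟨s, rfl⟩ : ∃ s, p = s + 2 := ⟨p - 2, by omega⟩
  rw [Nat.add_sub_cancel] at v
  have v := h.dvd (fun k => by have := Nat.le_of_dvd (by omega) k; omega) v
  have e : ((s : ℕ) : ℤ) ∣ (15 : ℕ) := by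
    have e1 : ((2 * m + 1 : ℕ) : ℤ) = ((s + 2) ^ 4 : ℕ) := by rw [h.eq]
    have e2 := (Int.natCast_dvd_natCast.2 v).mul_left 2
    push_cast at e1 e2 ⊢
    have : (15 : ℤ) = 2 * m - s * ((s + 4) * ((s + 2) ^ 2 + 4)) := by linear_combination -e1
    rw [this]; exact dvd_sub e2 (dvd_mul_right _ _)
  have e := Int.natCast_dvd_natCast.1 e
  have := Nat.le_of_dvd (by norm_num) e
  interval_cases s <;> omega

theorem Ar.wa (h : Ar p m) (e : p + 1 = 2 ^ i) {a : ℕ} (a2 : 2 ≤ a) (en : n = 2 ^ a * ((2 ^ a) ^ 2 - 1))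
    (u : p ∣ n) (v : n ∣ p ^ 2 * m) : False := by
  have g := h.ge
  have a4 : 4 ≤ 2 ^ a := Nat.pow_le_pow_right two_pos a2
  have f : (2 ^ a) ^ 2 - 1 = (2 ^ a + 1) * (2 ^ a - 1) := by rw [← Nat.sq_sub_sq, one_pow]
  rw [f] at en
  have v1 := h.two e ((Dvd.intro _ en.symm).trans v)
  rw [e, ← pow_succ', Nat.pow_dvd_pow_iff_le_right one_lt_two] at v1
  have u : p ∣ 2 ^ a + 1 ∨ p ∣ 2 ^ a - 1 := by
    rw [en] at u
    refine h.pr.dvd_mul.1 ((h.pr.dvd_mul.1 u).resolve_left fun k => ?_)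
    have := Nat.le_of_dvd two_pos (h.pr.dvd_of_dvd_pow k); omega
  rcases v1.lt_or_eq with v1 | rfl
  · rcases (Nat.lt_succ_iff.1 v1).lt_or_eq with v1 | rfl
    · have : 2 ^ (a + 1) ≤ 2 ^ i := Nat.pow_le_pow_right two_pos v1
      rw [pow_succ] at this
      rcases u with u | u <;> have := Nat.le_of_dvd (by omega) u <;> omega
    · have := h.add_two ((show p + 2 ∣ n from ⟨2 ^ a * (2 ^ a - 1), by rw [en, ← e]; ring⟩).trans v)
      subst this
      have : a < 4 := by by_contra l; have : 2 ^ 4 ≤ 2 ^ a := Nat.pow_le_pow_right two_pos (by omega); omega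
      interval_cases a <;> omega
  · rw [pow_succ, ← e] at u
    rcases u with u | u
    · rw [show (p + 1) * 2 + 1 = p * 2 + 3 by ring, Nat.dvd_add_right (dvd_mul_right _ _)] at u
      have := Nat.le_of_dvd (by norm_num) u; omega
    · rw [show (p + 1) * 2 - 1 = p * 2 + 1 by omega, Nat.dvd_add_right (dvd_mul_right _ _)] at u
      have := Nat.le_of_dvd (by norm_num) u; omega

theorem Ar.wb (h : Ar p m) (e : p + 1 = 2 ^ i) (hr : r.Prime) {b : ℕ} (eq : q = r ^ b) (q8 : q % 8 = 3 ∨ q % 8 = 5)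
    (en : 2 * n = q * (q ^ 2 - 1)) (u : p ∣ n) (v : n ∣ p ^ 2 * m) : False := by
  have g := h.ge
  have o : Odd q := Nat.odd_iff.2 (by omega)
  have b0 : b ≠ 0 := by rintro rfl; simp at eq; omega
  have qn : q ∣ p ^ 2 * m := ((Nat.coprime_two_right.2 o).dvd_of_dvd_mul_left (Dvd.intro _ en.symm)).trans v
  have p8 : p % 8 = 7 := by
    have : 3 ≤ i := by by_contra l; have : 2 ^ i ≤ 2 ^ 2 := Nat.pow_le_pow_right two_pos (by omega); omega
    obtain ⟨j, rfl⟩ := Nat.exists_eq_add_of_le this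
    rw [pow_add] at e; omega
  by_cases pq : p ∣ q
  · have : p = r := (Nat.prime_dvd_prime_iff_eq h.pr hr).1 (h.pr.dvd_of_dvd_pow (eq ▸ pq))
    subst this
    rw [eq] at qn
    have := (Nat.pow_dvd_pow_iff_le_right h.pr.one_lt).1 ((h.cop.pow_left b).dvd_of_dvd_mul_right qn)
    have : b = 1 ∨ b = 2 := by omega
    rcases this with rfl | rfl
    · rw [pow_one] at eq; omega
    · rw [eq, Nat.pow_mod, p8] at q8; omega
  have f : q ^ 2 - 1 = (q + 1) * (q - 1) := by rw [← Nat.sq_sub_sq, one_pow]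
  have u := u.mul_left 2
  rw [en, f] at u
  rcases h.pr.dvd_mul.1 ((h.pr.dvd_mul.1 u).resolve_left pq) with u | u
  · obtain ⟨k, k3, ep, em⟩ := h.ex
    have v := h.dvd pq qn
    rw [em] at v
    have l : 2 * p ≤ q + 1 := by
      obtain ⟨a, ea⟩ := u
      rcases a with _ | _ | a
      · omega
      · omega
      · nlinarith
    rcases odd_pp (eq ▸ hr.isPrimePow.pow b0) o v with v | v | ⟨c, v⟩
    · have := Nat.le_of_dvd (by omega) v; omega
    · have := Nat.le_of_dvd (by omega) v; omega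
    · have e1 : q * (2 * c) = 1 + p * p := by rw [ep]; linarith
      have e2 : p ∣ 2 * c + 1 := by
        have : p ∣ (q + 1) * (2 * c) := u.mul_right _
        rw [show (q + 1) * (2 * c) = p * p + (2 * c + 1) by linarith] at this
        exact (Nat.dvd_add_right (dvd_mul_right _ _)).1 this
      have := Nat.le_of_dvd (by omega) e2
      nlinarith
  · have := (h.pp hr (i := b) (by omega) (eq ▸ ((Nat.modEq_iff_dvd' (by omega)).2 u).symm) (eq ▸ qn)).1
    subst this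
    exact (Nat.not_even_iff_odd.2 o) (eq ▸ (Nat.even_pow.2 ⟨even_two, b0⟩))

theorem Ar.wc (h : Ar p m) {b : ℕ} (b0 : b ≠ 0) (eq : q = 3 ^ b) (en : n = q ^ 3 * (q ^ 3 + 1) * (q - 1))
    (u : p ∣ n) (v : n ∣ p ^ 2 * m) : False := by
  have g := h.ge
  have q3 : 3 ≤ q := eq ▸ Nat.le_self_pow b0 3
  have pq : ¬ p ∣ q ^ 3 := fun k => by
    rw [eq] at k
    have := Nat.le_of_dvd three_pos (h.pr.dvd_of_dvd_pow (h.pr.dvd_of_dvd_pow k)); omega
  have v := h.dvd pq ((Dvd.intro _ (by rw [en, mul_assoc])).trans v)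
  obtain ⟨k, k3, ep, em⟩ := h.ex
  rw [em] at v
  have l : q ^ 3 ≤ k + 1 := by
    rcases odd_pp ((eq ▸ Nat.prime_three.isPrimePow.pow b0).pow three_ne_zero)
      (eq ▸ (by decide : Odd 3).pow.pow) v with v | v | v
    · have := Nat.le_of_dvd (by omega) v; omega
    · exact Nat.le_of_dvd (by omega) v
    · have v := ((eq ▸ dvd_pow_self 3 b0 : 3 ∣ q).trans (dvd_pow_self q three_ne_zero)).trans v
      have : k % 3 = 0 ∨ k % 3 = 1 ∨ k % 3 = 2 := by omega
      rw [Nat.dvd_iff_mod_eq_zero, Nat.add_mod, Nat.add_mod (2 * k ^ 2), Nat.mul_mod, Nat.pow_mod, Nat.mul_mod 2 k] at v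
      rcases this with e | e | e <;> simp [e] at v
  have q27 : q ≤ q ^ 3 := Nat.le_self_pow three_ne_zero q
  rw [en] at u
  rcases h.pr.dvd_mul.1 u with u | u
  · have := Nat.le_of_dvd (by omega) ((h.pr.dvd_mul.1 u).resolve_left pq); omega
  · have := Nat.le_of_dvd (by omega) u; omega

theorem Ar.wd (h : Ar p m) (u : p ∣ 175560) (v : 175560 ∣ p ^ 2 * m) : False := by
  have g := h.ge
  have e := h.eq
  have : p = 7 ∨ p = 11 ∨ p = 19 := by
    rw [show 175560 = 2 ^ 3 * 3 * 5 * 7 * 11 * 19 by norm_num] at u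
    simp only [h.pr.dvd_mul] at u
    rcases u with ((((u | u) | u) | u) | u) | u
    · have := Nat.le_of_dvd two_pos (h.pr.dvd_of_dvd_pow u); omega
    · have := Nat.le_of_dvd (by norm_num) u; omega
    · have := Nat.le_of_dvd (by norm_num) u; omega
    · exact .inl ((Nat.prime_dvd_prime_iff_eq h.pr (by norm_num)).1 u)
    · exact .inr (.inl ((Nat.prime_dvd_prime_iff_eq h.pr (by norm_num)).1 u))
    · exact .inr (.inr ((Nat.prime_dvd_prime_iff_eq h.pr (by norm_num)).1 u))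
  rcases this with rfl | rfl | rfl <;> omega

end CF.L2q
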